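import Cfsg.Agent.Core.Jacobi.Model
import Cfsg.Agent.Forms.SympBridge
import Cfsg.Agent.Forms.SympOrder
import Cfsg.Agent.Forms.RankThree
import Cfsg.Agent.Linear.Sp42

/-!
# The centralizer of a transvection in `PSp₄(3)`
-/

set_option autoImplicit false
set_option maxRecDepth 100000
set_option maxHeartbeats 1000000

namespace Cfsg.Agent.Core.Jacobi

open Matrix

/-- Four by four matrices in block indices. -/
abbrev M4 := Matrix (Fin 2 ⊕ Fin 2) (Fin 2 ⊕ Fin 2) (ZMod 3)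

/-- The symplectic group. -/
abbrev Sp4 := Matrix.symplecticGroup (Fin 2) (ZMod 3)

/-- The matrix of a point. -/
def jmat (p : Pt) : M4 :=
  fromBlocks !![1, -p.1.2 * p.2.2.1 0 0 + p.1.1 * p.2.2.1 1 0; 0, p.2.2.1 0 0]
    !![p.2.1, -p.1.2 * p.2.2.1 0 1 + p.1.1 * p.2.2.1 1 1; p.1.1, p.2.2.1 0 1]
    !![0, 0; 0, p.2.2.1 1 0]
    !![1, 0; p.1.2, p.2.2.1 1 1]

theorem jmat_mul (p q : Pt) : jmat p * jmat q = jmat (pmul p q) := by
  obtain ⟨⟨v1, v2⟩, a, M⟩ := p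
  obtain ⟨⟨w1, w2⟩, b, N⟩ := q
  have hM := M.2
  rw [Matrix.det_fin_two] at hM
  simp only [jmat, pmul, app, om, fromBlocks_multiply, Matrix.SpecialLinearGroup.coe_mul]
  ext i j
  rcases i with i | i <;> rcases j with j | j <;> fin_cases i <;> fin_cases j <;>
    simp [Matrix.mul_apply, Fin.sum_univ_two] <;>
    first
    | ring1
    | (linear_combination (-w2 * N 0 0 + w1 * N 1 0) * (-hM))
    | (linear_combination (-w2 * N 0 1 + w1 * N 1 1) * (-hM))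

theorem jmat_symp : ∀ M : S23, jmat ((0, 0), 0, M) * J (Fin 2) (ZMod 3) * (jmat ((0, 0), 0, M))ᵀ = J (Fin 2) (ZMod 3) := by
  decide +kernel

theorem jmat_symp' : ∀ v : V2, ∀ a : ZMod 3, jmat (v, a, 1) * J (Fin 2) (ZMod 3) * (jmat (v, a, 1))ᵀ = J (Fin 2) (ZMod 3) := by
  decide +kernel

theorem pmul_split (p : Pt) : pmul (p.1, p.2.1, 1) ((0, 0), 0, p.2.2) = p := by
  obtain ⟨⟨v1, v2⟩, a, M⟩ := p
  simp [pmul, app, om]

theorem jmat_mem (p : Pt) : jmat p ∈ Sp4 := by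
  rw [← pmul_split p, ← jmat_mul]
  exact mul_mem (SymplecticGroup.mem_iff.2 (jmat_symp' _ _)) (SymplecticGroup.mem_iff.2 (jmat_symp _))

/-- The transvection. -/
def tp : Pt := ((0, 0), 1, 1)

/-- The table of conjugators. -/
def conjTable : List (List ℕ) := [[1, 0, 0, 0, 0, 1, 0, 0, 0, 0, 1, 0, 0, 0, 0, 1], [0, 0, 2, 0, 0, 1, 0, 0, 1, 0, 0, 0, 0, 0, 0, 1], [0, 1, 0, 0, 1, 0, 0, 0, 0, 0, 0, 1, 0, 0, 1, 0], [0, 0, 2, 1, 1, 1, 0, 0, 1, 0, 0, 0, 0, 0, 0, 1], [0, 1, 0, 0, 0, 0, 2, 0, 0, 0, 0, 1, 1, 0, 0, 0], [0, 0, 2, 2, 2, 1, 0, 0, 1, 0, 0, 0, 0, 0, 0, 1], [0, 0, 2, 1, 0, 0, 0, 2, 1, 0, 0, 0, 1, 1, 0, 0], [2, 0, 0, 0, 1, 1, 0, 0, 0, 0, 2, 1, 0, 0, 0, 1], [1, 1, 0, 0, 0, 0, 2, 1, 0, 0, 0, 1, 1, 0, 0, 0], [0, 1, 0, 0, 1, 0, 2, 0, 0, 0, 0, 1, 1, 0, 0, 0], [0, 0, 2, 2, 0, 0, 0, 2, 1, 0, 0, 0, 2, 1, 0, 0], [2, 0, 0, 0, 2, 1, 0, 0, 0, 0, 2, 2, 0, 0, 0, 1], [2, 1, 0, 0, 0, 0, 2, 2, 0, 0, 0, 1, 1, 0, 0, 0], [1,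 1, 2, 1, 1, 0, 0, 2, 1, 0, 0, 0, 1, 1, 0, 0], [0, 0, 2, 1, 1, 1, 0, 2, 1, 0, 0, 0, 1, 1, 0, 0], [1, 1, 0, 0, 1, 0, 2, 1, 0, 0, 0, 1, 1, 0, 0, 0], [0, 1, 0, 0, 2, 0, 2, 0, 0, 0, 0, 1, 1, 0, 0, 0], [1, 0, 2, 0, 0, 1, 0, 0, 1, 0, 0, 0, 0, 0, 0, 1], [2, 1, 2, 2, 1, 0, 0, 2, 1, 0, 0, 0, 2, 1, 0, 0], [0, 0, 2, 2, 2, 1, 0, 2, 1, 0, 0, 0, 2, 1, 0, 0], [2, 1, 0, 0, 1, 0, 2, 2, 0, 0, 0, 1, 1, 0, 0, 0], [2, 2, 2, 1, 2, 0, 0, 2, 1, 0, 0, 0, 1, 1, 0, 0], [1, 1, 2, 1, 2, 1, 0, 2, 1, 0, 0, 0, 1, 1, 0, 0], [2, 0, 0, 0, 1, 0, 0, 2, 1, 1, 2, 1, 1, 1, 0, 0], [0, 0, 2, 1, 2, 2, 0, 2, 1, 0, 0, 0, 1, 1, 0, 0], [1, 1, 0, 2, 0, 0, 2, 1, 1, 1, 0, 0, 1, 0, 0, 0], [1, 1, 0, 0, 2, 0, 2, 1, 0, 0, 0, 1, 1, 0, 0, 0], [1, 0, 2, 1, 1, 1, 0, 0, 1, 0, 0, 0, 0, 0, 0, 1], [2, 0, 2, 0, 0, 1, 0, 0, 1, 0, 0, 0, 0, 0, 0, 1], [1, 2, 2, 2, 2, 0, 0, 2, 1, 0, 0, 0, 2, 1, 0, 0], [2, 1, 2, 2, 0, 1, 0, 2, 1, 0, 0, 0, 2, 1, 0, 0], [0, 0, 2, 2, 1,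 2, 0, 2, 1, 0, 0, 0, 2, 1, 0, 0], [2, 1, 0, 2, 0, 0, 2, 2, 2, 1, 0, 0, 1, 0, 0, 0], [2, 1, 0, 0, 2, 0, 2, 2, 0, 0, 0, 1, 1, 0, 0, 0], [1, 0, 2, 2, 2, 1, 0, 0, 1, 0, 0, 0, 0, 0, 0, 1], [2, 2, 2, 1, 0, 1, 0, 2, 1, 0, 0, 0, 1, 1, 0, 0], [2, 2, 2, 1, 2, 2, 0, 0, 1, 0, 0, 0, 2, 0, 0, 2], [2, 0, 0, 0, 2, 0, 0, 2, 2, 2, 2, 1, 1, 1, 0, 0], [2, 0, 2, 1, 1, 1, 0, 0, 1, 0, 0, 0, 0, 0, 0, 1], [2, 0, 2, 2, 2, 1, 0, 0, 1, 0, 0, 0, 0, 0, 0, 1]]

/-- A conjugator. -/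
def conjM (n : Fin 40) : M4 := fun i j =>
  (((conjTable.getD n.val []).getD (4 * (finSumFinEquiv i).val + (finSumFinEquiv j).val) 0 : ℕ) : ZMod 3)

theorem conjM_symp : ∀ n : Fin 40, conjM n * J (Fin 2) (ZMod 3) * (conjM n)ᵀ = J (Fin 2) (ZMod 3) := by
  decide +kernel

/-- The conjugates of the transvection. -/
def conjT (n : Fin 40) : M4 := conjM n * jmat tp * (- J (Fin 2) (ZMod 3) * (conjM n)ᵀ * J (Fin 2) (ZMod 3))

theorem conjT_inj : ∀ m n : Fin 40, m ≠ n → conjT m ≠ conjT n ∧ conjT m ≠ -conjT n := by decide +kernel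

theorem conjT_mul : ∀ n : Fin 40, conjT n * conjM n = conjM n * jmat tp := by decide +kernel

theorem jmat_separates : ∀ p : Pt, (jmat p = 1 ∨ jmat p = -1) → p = ((0, 0), 0, 1) := by decide +kernel

theorem neg_one_ne : (-1 : M4) ≠ 1 := by decide +kernel

theorem jmat_one : jmat ((0, 0), 0, 1) = 1 := by decide +kernel

theorem tp_ne : tp ≠ ((0, 0), 0, 1) := by decide +kernel

theorem tp_pow : jmat tp * jmat tp * jmat tp = 1 := by decide +kernel

theorem card_pt : Nat.card Pt = 648 := by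
  simp only [Nat.card_prod, Nat.card_zmod]
  rw [Nat.card_eq_fintype_card, show Fintype.card S23 = 24 by decide +kernel]

theorem exists_model {F : Type*} [Field F] [Fintype F] (hF : Fintype.card F = 3) :
    ∃ (c : Cfsg.PSp 2 F) (S : Sylow 3 (Cfsg.PSp 2 F)), orderOf c = 3 ∧ c ∈ (S : Subgroup (Cfsg.PSp 2 F)) ∧
      c ∈ Subgroup.centralizer ((S : Subgroup (Cfsg.PSp 2 F)) : Set (Cfsg.PSp 2 F)) ∧
      ∃ f : Pt → Subgroup.centralizer ({c} : Set (Cfsg.PSp 2 F)),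
        Function.Bijective f ∧ ∀ p q, f p * f q = f (pmul p q) := by
  classical
  let e : Cfsg.PSp 2 (ZMod 3) ≃* Cfsg.PSp 2 F :=
    Forms.centerQuotientCongr (Linear.spCongr (l := Fin 2) (ZMod.ringEquivOfPrime F Nat.prime_three hF))
  set Z := Subgroup.center Sp4 with hZ
  have hZcard : Nat.card Z = 2 := by
    rw [hZ, Forms.card_center_symplectic (q := 3) (ZMod.card 3) (by norm_num)]; norm_num
  have hPSp : Nat.card (Cfsg.PSp 2 (ZMod 3)) = 25920 := by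
    have h := Subgroup.card_eq_card_quotient_mul_card_subgroup Z
    rw [Forms.card_symplecticGroup (q := 3) (ZMod.card 3), hZcard] at h
    norm_num [Finset.prod_range_succ, -Nat.card_eq_fintype_card] at h
    change _ = Nat.card (Cfsg.PSp 2 (ZMod 3)) * _ at h
    omega
  have hnegmem : (-1 : M4) ∈ Sp4 := SymplecticGroup.mem_iff.2 (by decide +kernel)
  let n1 : Sp4 := ⟨-1, hnegmem⟩
  have hn1 : n1 ∈ Z := Subgroup.mem_center_iff.2 fun g => Subtype.ext (by simp [n1])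
  have hn1' : n1 ≠ 1 := fun h => neg_one_ne (congrArg Subtype.val h)
  have hcen : ∀ g ∈ Z, (g : M4) = 1 ∨ (g : M4) = -1 := by
    intro g hg
    by_contra h
    push Not at h
    have h3 : Function.Injective ![(1 : Z), ⟨n1, hn1⟩, ⟨g, hg⟩] := by
      intro i j hij
      have a : (1 : Z) ≠ ⟨n1, hn1⟩ := fun e => hn1' (congrArg Subtype.val e).symm
      have b : (1 : Z) ≠ ⟨g, hg⟩ := fun e => h.1 (congrArg (fun w : Z => ((w : Sp4) : M4)) e).symm
      have c : (⟨n1, hn1⟩ : Z) ≠ ⟨g, hg⟩ := fun e => h.2 (congrArg (fun w : Z => ((w : Sp4) : M4)) e).symm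
      fin_cases i <;> fin_cases j <;>
        first
        | rfl
        | exact absurd hij a
        | exact absurd hij.symm a
        | exact absurd hij b
        | exact absurd hij.symm b
        | exact absurd hij c
        | exact absurd hij.symm c
    have := Nat.card_le_card_of_injective _ h3
    rw [hZcard, Nat.card_eq_fintype_card, Fintype.card_fin] at this
    omega
  let el (p : Pt) : Sp4 := ⟨jmat p, jmat_mem p⟩
  let F0 (p : Pt) : Cfsg.PSp 2 (ZMod 3) := QuotientGroup.mk (el p)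
  have F0mul : ∀ p q, F0 p * F0 q = F0 (pmul p q) := fun p q => by
    simp only [F0, ← QuotientGroup.mk_mul]
    exact congrArg _ (Subtype.ext (jmat_mul p q))
  set c0 := F0 tp with hc0
  set C0 := Subgroup.centralizer ({c0} : Set (Cfsg.PSp 2 (ZMod 3))) with hC0
  have hcomm : ∀ p, F0 p ∈ C0 := fun p => by
    rw [hC0, Subgroup.mem_centralizer_singleton_iff, hc0, F0mul, F0mul]
    congr 1
    obtain ⟨⟨v1, v2⟩, a, M⟩ := p
    simp [pmul, tp, app, om, add_comm]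
  have F0inj : Function.Injective F0 := by
    intro p q h
    -- the inverse of a point
    let qi : Pt := (-(app q.2.2⁻¹ q.1), -q.2.1, q.2.2⁻¹)
    have hqi : pmul qi q = ((0, 0), 0, 1) := by
      obtain ⟨⟨v1, v2⟩, a, M⟩ := q
      simp [qi, pmul, app, om]
      ring
    have h1 : F0 (pmul qi q) = F0 (pmul qi p) := by rw [← F0mul, ← F0mul, h]
    rw [hqi] at h1
    have h2 : jmat (pmul qi p) = 1 ∨ jmat (pmul qi p) = -1 := by
      have h3 := hcen _ (QuotientGroup.eq.1 h1)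
      have e0 : (el ((0, 0), 0, 1) : Sp4) = 1 := Subtype.ext (by
        exact jmat_one)
      rw [e0, inv_one, one_mul] at h3
      exact h3
    have h4 := jmat_separates _ h2
    rw [← hqi] at h4
    obtain ⟨⟨v1, v2⟩, a, M⟩ := p
    obtain ⟨⟨w1, w2⟩, b, N⟩ := q
    simp only [pmul, Prod.mk.injEq] at h4
    obtain ⟨h41, h42, h43⟩ := h4
    have hMN : M = N := mul_left_cancel h43
    subst hMN
    have hv := add_left_cancel h41
    have hv' : (v1, v2) = (w1, w2) := by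
      have h5 := congrArg (app M) hv
      have hd := M.2
      rw [Matrix.det_fin_two] at hd
      have hid : ∀ u : V2, app M (app M⁻¹ u) = u := by
        intro u
        simp [app, Matrix.SpecialLinearGroup.coe_inv, Matrix.adjugate_fin_two]
        ext <;> simp
        · linear_combination u.1 * hd
        · linear_combination u.2 * hd
      rwa [hid, hid] at h5
    rw [hv']
    rw [hv'] at h42
    simp at h42
    rw [h42]
  have hC0le : Nat.card C0 ≤ 648 := by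
    have hinj : Function.Injective fun n : Fin 40 =>
        (QuotientGroup.mk (QuotientGroup.mk (⟨conjM n, SymplecticGroup.mem_iff.2 (conjM_symp n)⟩ : Sp4) :
          Cfsg.PSp 2 (ZMod 3)) : Cfsg.PSp 2 (ZMod 3) ⧸ C0) := by
      intro m n h
      by_contra hne
      obtain ⟨h1, h2⟩ := conjT_inj m n hne
      set A : Sp4 := ⟨conjM m, SymplecticGroup.mem_iff.2 (conjM_symp m)⟩
      set B : Sp4 := ⟨conjM n, SymplecticGroup.mem_iff.2 (conjM_symp n)⟩
      have hm := Subgroup.mem_centralizer_singleton_iff.1 (QuotientGroup.eq.1 h)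
      have e1 : (QuotientGroup.mk (A * el tp * A⁻¹) : Cfsg.PSp 2 (ZMod 3)) = QuotientGroup.mk (B * el tp * B⁻¹) := by
        simp only [QuotientGroup.mk_mul, QuotientGroup.mk_inv]
        change _ * c0 * _ = _ * c0 * _
        generalize (QuotientGroup.mk A : Cfsg.PSp 2 (ZMod 3)) = a at hm ⊢
        generalize (QuotientGroup.mk B : Cfsg.PSp 2 (ZMod 3)) = b at hm ⊢
        calc a * c0 * a⁻¹ = a * (c0 * (a⁻¹ * b)) * b⁻¹ := by group
          _ = a * (a⁻¹ * b * c0) * b⁻¹ := by rw [hm]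
          _ = b * c0 * b⁻¹ := by group
      have h3 := hcen _ (QuotientGroup.eq.1 e1)
      have em : ∀ (k : Fin 40) (K : Sp4), (K : M4) = conjM k → ((K * el tp * K⁻¹ : Sp4) : M4) = conjT k := by
        intro k K hK
        rw [conjT, ← hK]
        rfl
      have e2 : ((B * el tp * B⁻¹ : Sp4) : M4) = ((A * el tp * A⁻¹ : Sp4) : M4) * (((A * el tp * A⁻¹)⁻¹ * (B * el tp * B⁻¹) : Sp4) : M4) := by
        rw [← Submonoid.coe_mul, mul_inv_cancel_left]
      rw [em n B rfl, em m A rfl] at e2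
      rcases h3 with h3 | h3
      · rw [h3, mul_one] at e2; exact h1 e2.symm
      · rw [h3, mul_neg, mul_one] at e2; exact h2 (by rw [e2, neg_neg])
    have h40 := Nat.card_le_card_of_injective _ hinj
    rw [Nat.card_eq_fintype_card, Fintype.card_fin] at h40
    have h := Subgroup.card_mul_index C0
    rw [hPSp] at h
    change 40 ≤ C0.index at h40
    nlinarith
  let f0 : Pt → C0 := fun p => ⟨F0 p, hcomm p⟩
  have hf0 : Function.Bijective f0 := by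
    have hinj : Function.Injective f0 := fun p q h => F0inj (congrArg Subtype.val h)
    exact (Nat.bijective_iff_injective_and_card f0).2 ⟨hinj,
      le_antisymm (Nat.card_le_card_of_injective f0 hinj) (by rw [card_pt]; exact hC0le)⟩
  have hC0card : Nat.card C0 = 648 := by rw [← Nat.card_eq_of_bijective f0 hf0, card_pt]
  have hc3 : orderOf c0 = 3 := by
    haveI : Fact (Nat.Prime 3) := ⟨Nat.prime_three⟩
    refine orderOf_eq_prime ?_ fun h => ?_
    · rw [pow_succ, pow_two, hc0]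
      simp only [F0, ← QuotientGroup.mk_mul]
      rw [show el tp * el tp * el tp = 1 from Subtype.ext tp_pow]; rfl
    · have : F0 tp = F0 ((0, 0), 0, 1) := by
        rw [← hc0, h]
        simp only [F0]
        rw [show el ((0, 0), 0, 1) = 1 from Subtype.ext jmat_one]; rfl
      exact tp_ne (F0inj this)
  -- transfer
  set c := e c0 with hcdef
  set C := Subgroup.centralizer ({c} : Set (Cfsg.PSp 2 F)) with hC
  have hmap : C0.map e.toMonoidHom = C := by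
    ext g
    obtain ⟨g, rfl⟩ := e.surjective g
    change e.toMonoidHom g ∈ _ ↔ _
    rw [Subgroup.mem_map_iff_mem (f := e.toMonoidHom) e.injective, hC0, hC, Subgroup.mem_centralizer_singleton_iff,
      Subgroup.mem_centralizer_singleton_iff, hcdef, ← map_mul, ← map_mul, e.injective.eq_iff]
  have hCcard : Nat.card C = 648 := by
    rw [← hmap, Subgroup.card_map_of_injective (f := e.toMonoidHom) e.injective, hC0card]
  have hG : Nat.card (Cfsg.PSp 2 F) = 25920 := by rw [← Nat.card_congr e.toEquiv, hPSp]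
  have hcC : c ∈ C := Subgroup.mem_centralizer_singleton_iff.2 rfl
  haveI : Fact (Nat.Prime 3) := ⟨Nat.prime_three⟩
  obtain ⟨P⟩ : Nonempty (Sylow 3 C) := inferInstance
  have hPcard : Nat.card P = 81 := by
    rw [P.card_eq_multiplicity, hCcard, show Nat.factorization 648 3 = 4 by
      rw [Nat.factorization_def _ Nat.prime_three, show 648 = 3 ^ 4 * 8 from rfl,
        padicValNat.mul (by norm_num) (by norm_num), padicValNat.prime_pow,
        padicValNat.eq_zero_of_not_dvd (by norm_num)]]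
    norm_num
  let S : Sylow 3 (Cfsg.PSp 2 F) := Sylow.ofCard ((P : Subgroup C).map C.subtype) (by
    rw [Subgroup.card_map_of_injective C.subtype_injective, hPcard, hG,
      Nat.factorization_def _ Nat.prime_three, show 25920 = 3 ^ 4 * 320 from rfl,
      padicValNat.mul (by norm_num) (by norm_num), padicValNat.prime_pow,
      padicValNat.eq_zero_of_not_dvd (by norm_num)]
    norm_num)
  have hS : (S : Subgroup (Cfsg.PSp 2 F)) = (P : Subgroup C).map C.subtype := rfl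
  have hcP : (⟨c, hcC⟩ : C) ∈ (P : Subgroup C) := by
    have hcen' : (⟨c, hcC⟩ : C) ∈ Subgroup.center C := Subgroup.mem_center_iff.2 fun g =>
      Subtype.ext (Subgroup.mem_centralizer_singleton_iff.1 g.2)
    have hp : IsPGroup 3 (Subgroup.zpowers (⟨c, hcC⟩ : C)) := IsPGroup.of_card (n := 1) (by
      rw [Nat.card_zpowers, ← Subgroup.orderOf_coe, pow_one]
      exact (MulEquiv.orderOf_eq e c0).trans hc3)
    obtain ⟨P', hP'⟩ := hp.exists_le_sylow
    obtain ⟨g, rfl⟩ := MulAction.exists_smul_eq C P' P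
    rw [Sylow.coe_subgroup_smul, Subgroup.mem_pointwise_smul_iff_inv_smul_mem]
    have : (MulAut.conj g)⁻¹ • (⟨c, hcC⟩ : C) = ⟨c, hcC⟩ := by
      show g⁻¹ * _ * g = _
      rw [mul_assoc, ← Subgroup.mem_center_iff.1 hcen' g, inv_mul_cancel_left]
    rw [this]
    exact hP' (Subgroup.mem_zpowers _)
  refine ⟨c, S, (MulEquiv.orderOf_eq e c0).trans hc3, ?_, ?_, ?_⟩
  · rw [hS]; exact ⟨⟨c, hcC⟩, hcP, rfl⟩
  · refine Subgroup.mem_centralizer_iff.2 fun g hg => ?_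
    rw [hS] at hg
    obtain ⟨g, -, rfl⟩ := hg
    exact Subgroup.mem_centralizer_singleton_iff.1 g.2
  · let eC : C0 ≃* C := (C0.equivMapOfInjective e.toMonoidHom e.injective).trans (MulEquiv.subgroupCongr hmap)
    refine ⟨eC ∘ f0, eC.bijective.comp hf0, fun p q => ?_⟩
    rw [Function.comp_apply, Function.comp_apply, ← map_mul]
    exact congrArg eC (Subtype.ext (F0mul p q))

end Cfsg.Agent.Core.Jacobi
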