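import Cfsg.Agent.Core.Jacobi.Model
import Cfsg.Agent.Core.Cores
import Cfsg.Prelude.Def_Transfer

/-!
# Recognition of `3^(1+2) : SL(2, 3)`
-/

set_option autoImplicit false
set_option maxHeartbeats 800000

namespace Cfsg.Agent.Core.Jacobi

open scoped commutatorElement

/-- The data of a coordinatised Heisenberg subgroup. -/
structure Heis {X : Type*} [Group X] (R : Subgroup X) (x y z : X) : Prop where
  hx : x ∈ R
  hy : y ∈ R
  hz : z ∈ R
  hzc : ∀ r ∈ R, z * r = r * z
  hyx : y * x = x * y * z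
  x3 : x ^ 3 = 1
  y3 : y ^ 3 = 1
  z3 : z ^ 3 = 1
  exists_co : ∀ r ∈ R, ∃ a b c : ZMod 3, r = x ^ a.val * y ^ b.val * z ^ c.val
  co_inj : ∀ a b c a' b' c' : ZMod 3, x ^ a.val * y ^ b.val * z ^ c.val = x ^ a'.val * y ^ b'.val * z ^ c'.val →
    a = a' ∧ b = b' ∧ c = c'

variable {X : Type*} [Group X] [Finite X]

theorem pow_val_add {g : X} (hg : g ^ 3 = 1) (a b : ZMod 3) : g ^ (a + b).val = g ^ a.val * g ^ b.val := by
  rw [← pow_add, ZMod.val_add, ← pow_eq_pow_mod _ hg]

theorem exists_heis {R : Subgroup X} (hR : Cfsg.IsExtraspecial 3 R) (hRcard : Nat.card R = 27)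
    (hRexp : ∀ r ∈ R, r ^ 3 = 1) : ∃ x y z : X, Heis R x y z ∧
      (∀ r ∈ R, (∀ s ∈ R, r * s = s * r) → ∃ c : ZMod 3, r = z ^ c.val) := by
  obtain ⟨⟨-, -, hder⟩, hZ⟩ := hR
  obtain ⟨x, y, hxy⟩ : ∃ x y : R, x * y ≠ y * x := by
    by_contra h
    push Not at h
    have : Subgroup.center R = ⊤ := eq_top_iff.2 fun a _ => Subgroup.mem_center_iff.2 fun b => h b a
    rw [this, Subgroup.card_top, hRcard] at hZ
    omega
  set z : R := (x * y)⁻¹ * (y * x) with hz
  have hzZ : z ∈ Subgroup.center R := by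
    rw [← hder, hz, show (x * y)⁻¹ * (y * x) = ⁅y⁻¹, x⁻¹⁆ by rw [commutatorElement_def]; group, commutator_def]
    exact Subgroup.commutator_mem_commutator trivial trivial
  have hz1 : z ≠ 1 := fun e => hxy (inv_mul_eq_one.1 e)
  have cube : ∀ r : R, r ^ 3 = 1 := fun r => Subtype.ext (by simpa using hRexp r r.2)
  have hzord : orderOf z = 3 := by
    haveI : Fact (Nat.Prime 3) := ⟨Nat.prime_three⟩
    exact orderOf_eq_prime (cube z) hz1
  have hZeq : Subgroup.center R = Subgroup.zpowers z :=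
    (Subgroup.eq_of_le_of_card_ge ((Subgroup.zpowers_le).2 hzZ) (by rw [hZ, Nat.card_zpowers, hzord])).symm
  have hpowz : ∀ w ∈ Subgroup.center R, ∃ c : ZMod 3, w = z ^ c.val := by
    intro w hw
    rw [hZeq, ← mem_powers_iff_mem_zpowers] at hw
    obtain ⟨n, rfl⟩ := hw
    refine ⟨(n : ZMod 3), ?_⟩
    show z ^ n = _
    rw [ZMod.val_natCast]
    exact pow_eq_pow_mod n (cube z)
  have hinj : Function.Injective fun q : ZMod 3 × ZMod 3 × ZMod 3 =>
      x ^ q.1.val * y ^ q.2.1.val * z ^ q.2.2.val := by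
    have hzc : ∀ (n : ℕ) (g : R), g * z ^ n = z ^ n * g := fun n g => Subgroup.mem_center_iff.1 (pow_mem hzZ n) g
    have hsq : ∀ a : ZMod 3, a ≠ 0 → a.val * a.val % 3 = 1 := by decide
    have hb : ∀ (a b : ZMod 3), x ^ a.val * y ^ b.val ∈ Subgroup.center R → a = 0 ∧ b = 0 := by
      intro a b hc
      have hb0 : b = 0 := by
        by_contra hb
        have h1 : Commute (y ^ b.val) x := by
          have h := Subgroup.mem_center_iff.1 hc x
          refine mul_left_cancel (a := x ^ a.val) ?_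
          calc x ^ a.val * (y ^ b.val * x) = x * (x ^ a.val * y ^ b.val) := by rw [← mul_assoc, h]
            _ = x ^ a.val * (x * y ^ b.val) := by rw [← mul_assoc, ← mul_assoc, (Commute.self_pow x _).eq]
        have e : (y ^ b.val) ^ b.val = y := by
          rw [← pow_mul, pow_eq_pow_mod _ (cube y)]
          rw [hsq b hb, pow_one]
        have := (h1.pow_left b.val).eq
        rw [e] at this
        exact hxy this.symm
      refine ⟨?_, hb0⟩
      subst hb0
      rw [ZMod.val_zero, pow_zero, mul_one] at hc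
      by_contra ha
      have e : (x ^ a.val) ^ a.val = x := by
        rw [← pow_mul, pow_eq_pow_mod _ (cube x)]
        rw [hsq a ha, pow_one]
      exact hxy (e ▸ (Subgroup.mem_center_iff.1 (pow_mem hc a.val) y).symm)
    rintro ⟨a, b, c⟩ ⟨a', b', c'⟩ h
    simp only at h
    have key : x ^ (a - a').val * y ^ (b - b').val ∈ Subgroup.center R := by
      have h1 : x ^ (a - a').val * y ^ b.val * z ^ c.val = y ^ b'.val * z ^ c'.val := by
        refine mul_left_cancel (a := x ^ a'.val) ?_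
        rw [← mul_assoc, ← mul_assoc, ← pow_val_add (cube x), add_sub_cancel, ← mul_assoc, h]
      have h2 : y ^ b.val = y ^ (b - b').val * y ^ b'.val := by rw [← pow_val_add (cube y), sub_add_cancel]
      have h3 : x ^ (a - a').val * y ^ (b - b').val = y ^ b'.val * (z ^ c'.val * (z ^ c.val)⁻¹) * (y ^ b'.val)⁻¹ := by
        rw [← mul_assoc (y ^ b'.val), ← h1, h2]; group
      rw [h3]
      have : z ^ c'.val * (z ^ c.val)⁻¹ ∈ Subgroup.center R := mul_mem (pow_mem hzZ _) (inv_mem (pow_mem hzZ _))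
      rw [Subgroup.mem_center_iff.1 this, mul_inv_cancel_right]
      exact this
    obtain ⟨ha, hb'⟩ := hb _ _ key
    rw [sub_eq_zero] at ha hb'
    subst ha hb'
    have hc : c = c' := by
      have := pow_inj_mod.1 (mul_left_cancel h)
      rw [hzord, Nat.mod_eq_of_lt (ZMod.val_lt c), Nat.mod_eq_of_lt (ZMod.val_lt c')] at this
      exact ZMod.val_injective 3 this
    subst hc
    rfl
  have hbij := (Nat.bijective_iff_injective_and_card _).2 ⟨hinj, by rw [hRcard]; simp [Nat.card_eq_fintype_card]⟩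
  refine ⟨x, y, z, ⟨x.2, y.2, z.2, fun r hr => ?_, ?_, hRexp _ x.2, hRexp _ y.2, hRexp _ z.2, fun r hr => ?_,
    fun a b c a' b' c' e => ?_⟩, fun r hr hc => ?_⟩
  · exact congrArg Subtype.val (Subgroup.mem_center_iff.1 hzZ ⟨r, hr⟩).symm
  · exact congrArg Subtype.val (show y * x = x * y * z by rw [hz, mul_inv_cancel_left])
  · obtain ⟨⟨a, b, c⟩, e⟩ := hbij.2 ⟨r, hr⟩
    exact ⟨a, b, c, by simpa using (congrArg Subtype.val e).symm⟩
  · have h' := hinj (a₁ := (a, b, c)) (a₂ := (a', b', c')) (Subtype.ext (by simpa using e))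
    simpa using h'
  · obtain ⟨c, e⟩ := hpowz ⟨r, hr⟩ (Subgroup.mem_center_iff.2 fun s => Subtype.ext (hc s.1 s.2).symm)
    exact ⟨c, by simpa using congrArg Subtype.val e⟩

namespace Heis

variable {R : Subgroup X} {x y z : X} (H : Heis R x y z)
include H

omit [Finite X] in
theorem z_pow_comm {r : X} (hr : r ∈ R) (n : ℕ) : z ^ n * r = r * z ^ n :=
  (show Commute z r from H.hzc r hr).pow_left n

omit [Finite X] in
theorem swap (m n : ℕ) : y ^ n * x ^ m = x ^ m * y ^ n * z ^ (n * m) := by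
  have hm : ∀ m, y * x ^ m = x ^ m * y * z ^ m := by
    intro m
    induction m with
    | zero => simp
    | succ m ih =>
      calc y * x ^ (m + 1) = y * x ^ m * x := by rw [pow_succ, mul_assoc]
        _ = x ^ m * y * (z ^ m * x) := by rw [ih, mul_assoc]
        _ = x ^ m * (y * x) * z ^ m := by rw [H.z_pow_comm H.hx]; group
        _ = x ^ (m + 1) * y * z ^ (m + 1) := by rw [H.hyx, pow_succ, pow_succ']; group
  induction n with
  | zero => simp
  | succ n ih =>
    calc y ^ (n + 1) * x ^ m = y * (y ^ n * x ^ m) := by rw [pow_succ', mul_assoc]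
      _ = y * x ^ m * y ^ n * z ^ (n * m) := by rw [ih]; group
      _ = x ^ m * y * (z ^ m * y ^ n) * z ^ (n * m) := by rw [hm]; group
      _ = x ^ m * y ^ (n + 1) * z ^ ((n + 1) * m) := by
        rw [H.z_pow_comm (pow_mem H.hy n), show (n + 1) * m = m + n * m by ring, pow_add, pow_succ']; group

/-- The normal form. -/
theorem mul_co (a b c a' b' c' : ZMod 3) :
    x ^ a.val * y ^ b.val * z ^ c.val * (x ^ a'.val * y ^ b'.val * z ^ c'.val) =
      x ^ (a + a').val * y ^ (b + b').val * z ^ (c + c' + b * a').val := by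
  have hz2 : z ^ (b * a').val = z ^ (b.val * a'.val) := by
    rw [ZMod.val_mul, ← pow_eq_pow_mod _ H.z3]
  rw [pow_val_add H.z3, pow_val_add H.z3, pow_val_add H.x3, pow_val_add H.y3, hz2]
  calc x ^ a.val * y ^ b.val * z ^ c.val * (x ^ a'.val * y ^ b'.val * z ^ c'.val)
      = x ^ a.val * y ^ b.val * (z ^ c.val * (x ^ a'.val * y ^ b'.val)) * z ^ c'.val := by group
    _ = x ^ a.val * (y ^ b.val * x ^ a'.val) * y ^ b'.val * z ^ c.val * z ^ c'.val := by
        rw [H.z_pow_comm (mul_mem (pow_mem H.hx _) (pow_mem H.hy _))]; group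
    _ = x ^ a.val * x ^ a'.val * y ^ b.val * (z ^ (b.val * a'.val) * y ^ b'.val) * z ^ c.val * z ^ c'.val := by
        rw [H.swap]; group
    _ = _ := by rw [H.z_pow_comm (pow_mem H.hy _)]; group

/-- The plane coordinates of an element of `R`. -/
noncomputable def co (r : X) : V2 := by
  classical exact if h : r ∈ R then ((H.exists_co r h).choose, (H.exists_co r h).choose_spec.choose) else 0

omit [Finite X] in
theorem exists_form {r : X} (hr : r ∈ R) :
    ∃ c : ZMod 3, r = x ^ (H.co r).1.val * y ^ (H.co r).2.val * z ^ c.val := by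
  rw [co, dif_pos hr]
  exact (H.exists_co r hr).choose_spec.choose_spec

omit [Finite X] in
theorem co_mem (a b c : ZMod 3) : x ^ a.val * y ^ b.val * z ^ c.val ∈ R :=
  mul_mem (mul_mem (pow_mem H.hx _) (pow_mem H.hy _)) (pow_mem H.hz _)

omit [Finite X] in
theorem co_eq (a b c : ZMod 3) : H.co (x ^ a.val * y ^ b.val * z ^ c.val) = (a, b) := by
  obtain ⟨c', hc'⟩ := H.exists_form (H.co_mem a b c)
  obtain ⟨h1, h2, -⟩ := H.co_inj _ _ _ _ _ _ hc'
  exact Prod.ext h1.symm h2.symm

theorem co_mul {r s : X} (hr : r ∈ R) (hs : s ∈ R) : H.co (r * s) = H.co r + H.co s := by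
  obtain ⟨c, hc⟩ := H.exists_form hr
  obtain ⟨c', hc'⟩ := H.exists_form hs
  conv_lhs => rw [hc, hc', H.mul_co, H.co_eq]
  rfl

omit [Finite X] in
theorem co_one : H.co 1 = 0 := by
  have := H.co_eq 0 0 0
  simp only [ZMod.val_zero, pow_zero, mul_one] at this
  exact this

theorem co_inv {r : X} (hr : r ∈ R) : H.co r⁻¹ = -H.co r := by
  have := H.co_mul (inv_mem hr) hr
  rw [inv_mul_cancel, H.co_one] at this
  exact eq_neg_of_add_eq_zero_left this.symm

omit [Finite X] in
theorem co_x : H.co x = (1, 0) := by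
  have := H.co_eq 1 0 0
  rwa [show (1 : ZMod 3).val = 1 from rfl, pow_one, ZMod.val_zero, pow_zero, mul_one, pow_zero, mul_one] at this

omit [Finite X] in
theorem co_y : H.co y = (0, 1) := by
  have := H.co_eq 0 1 0
  rwa [show (1 : ZMod 3).val = 1 from rfl, pow_one, ZMod.val_zero, pow_zero, one_mul, pow_zero, mul_one] at this

omit [Finite X] in
theorem co_z : H.co z = 0 := by
  have := H.co_eq 0 0 1
  rwa [show (1 : ZMod 3).val = 1 from rfl, pow_one, ZMod.val_zero, pow_zero, pow_zero, one_mul, one_mul] at this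

theorem co_pow {r : X} (hr : r ∈ R) (a : ZMod 3) : H.co (r ^ a.val) = (a * (H.co r).1, a * (H.co r).2) := by
  have h : ∀ n : ℕ, H.co (r ^ n) = ((n : ZMod 3) * (H.co r).1, (n : ZMod 3) * (H.co r).2) := by
    intro n
    induction n with
    | zero => rw [pow_zero, H.co_one]; ext <;> simp
    | succ n ih =>
      rw [pow_succ, H.co_mul (pow_mem hr n) hr, ih]
      ext <;> simp <;> ring
  rw [h, ZMod.natCast_zmod_val]

theorem exists_z_of_co {r : X} (hr : r ∈ R) (h : H.co r = 0) : ∃ c : ZMod 3, r = z ^ c.val := by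
  obtain ⟨c, hc⟩ := H.exists_form hr
  refine ⟨c, ?_⟩
  rw [h] at hc
  simpa using hc

/-- Commuting in `R` is read off from the coordinates. -/
theorem comm_iff {r s : X} (hr : r ∈ R) (hs : s ∈ R) :
    r * s = s * r * z ^ ((H.co r).2 * (H.co s).1 - (H.co r).1 * (H.co s).2).val := by
  obtain ⟨c, hc⟩ := H.exists_form hr
  obtain ⟨c', hc'⟩ := H.exists_form hs
  generalize H.co r = v at hc ⊢
  generalize H.co s = w at hc' ⊢
  rw [hc, hc', H.mul_co, H.mul_co, mul_assoc (x ^ (w.1 + v.1).val * _), ← pow_val_add H.z3, add_comm w.1, add_comm w.2]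
  congr 3
  ring

end Heis

theorem facts_s23 :
    (∀ g : S23, ∃ a b c d : Fin 3, g = Um ^ a.val * Lm ^ b.val * Um ^ c.val * Lm ^ d.val) ∧
    (∀ g : S23, g ≠ 1 → ∃ h : S23, g ^ 2 = -1 ∨ g ^ 3 = -1 ∨ g = -1 ∨ (h * g * h⁻¹ * g⁻¹) ^ 2 = -1) ∧
    (∀ M : S23, M ^ 3 = 1 → M ≠ 1 → ∃ h : S23, h * M * h⁻¹ = Um ∨ h * M * h⁻¹ = Um ^ 2) ∧
    (-1 : S23) ≠ 1 ∧ (∀ g : S23, -1 * g = g * -1) ∧ (-1 : S23) * -1 = 1 ∧ Um ^ 3 = 1 ∧ Lm ^ 3 = 1 ∧ Um ≠ 1 := by
  refine ⟨?_, ?_, ?_, ?_, ?_, ?_, ?_, ?_, ?_⟩ <;> decide +kernel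

theorem card_s23 : Nat.card S23 = 24 := by
  rw [Nat.card_eq_fintype_card]; decide +kernel

theorem exists_coords (hR : Cfsg.IsExtraspecial 3 (Cfsg.pCore 3 X)) (hRcard : Nat.card (Cfsg.pCore 3 X) = 27)
    (hRexp : ∀ r ∈ Cfsg.pCore 3 X, r ^ 3 = 1) (e : X ⧸ Cfsg.pCore 3 X ≃* S23)
    (hO2 : Cfsg.pCore 2 X = ⊥)
    (hE : ∃ E : Subgroup X, IsMulCommutative E ∧ (∀ a ∈ E, a ^ 3 = 1) ∧ Nat.card E = 27) :
    ∃ f : Pt → X, Function.Bijective f ∧ ∀ p q, f p * f q = f (pmul p q) := by
  classical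
  set R := Cfsg.pCore 3 X
  have hRn : R.Normal := inferInstance
  have conjR : ∀ (g : X), ∀ r ∈ R, g * r * g⁻¹ ∈ R := fun g r hr => hRn.conj_mem r hr g
  obtain ⟨x, y, z, H, hcen⟩ := exists_heis hR hRcard hRexp
  obtain ⟨hgen, hneg, hU, hne, hnegc, hnegneg, hU3, hL3, hU1⟩ := facts_s23
  let π : X →* S23 := e.toMonoidHom.comp (QuotientGroup.mk' R)
  have hπs : Function.Surjective π := e.surjective.comp (QuotientGroup.mk'_surjective R)
  have hπk : ∀ g, π g = 1 ↔ g ∈ R := fun g => by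
    simp only [π, MonoidHom.comp_apply, MulEquiv.coe_toMonoidHom, map_eq_one_iff e e.injective,
      QuotientGroup.mk'_apply, QuotientGroup.eq_one_iff]
  -- conjugation in coordinates
  have cox := H.co_x
  have coy := H.co_y
  let rho : X → Matrix (Fin 2) (Fin 2) (ZMod 3) := fun g =>
    !![(H.co (g * x * g⁻¹)).1, (H.co (g * y * g⁻¹)).1; (H.co (g * x * g⁻¹)).2, (H.co (g * y * g⁻¹)).2]
  have hconj : ∀ g, ∀ r ∈ R, H.co (g * r * g⁻¹) =
      (rho g 0 0 * (H.co r).1 + rho g 0 1 * (H.co r).2, rho g 1 0 * (H.co r).1 + rho g 1 1 * (H.co r).2) := by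
    intro g r hr
    obtain ⟨c, hc⟩ := H.exists_form hr
    generalize H.co r = v at hc ⊢
    subst hc
    have hzR := conjR g z H.hz
    have hz0 : H.co (g * z * g⁻¹) = 0 := by
      have h1 := H.comm_iff (conjR g y H.hy) (conjR g x H.hx)
      have h2 : g * y * g⁻¹ * (g * x * g⁻¹) = g * x * g⁻¹ * (g * y * g⁻¹) * (g * z * g⁻¹) := by
        rw [show g * y * g⁻¹ * (g * x * g⁻¹) = g * (y * x) * g⁻¹ by group, H.hyx]; group
      rw [h2] at h1
      rw [mul_left_cancel h1]
      have := H.co_eq 0 0 ((H.co (g * y * g⁻¹)).2 * (H.co (g * x * g⁻¹)).1 -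
        (H.co (g * y * g⁻¹)).1 * (H.co (g * x * g⁻¹)).2)
      rw [ZMod.val_zero, pow_zero, pow_zero, one_mul, one_mul] at this
      exact this
    rw [show g * (x ^ v.1.val * y ^ v.2.val * z ^ c.val) * g⁻¹ =
        (g * x * g⁻¹) ^ v.1.val * (g * y * g⁻¹) ^ v.2.val * (g * z * g⁻¹) ^ c.val by
      rw [conj_pow, conj_pow, conj_pow]; group,
      H.co_mul (mul_mem (pow_mem (conjR g x H.hx) _) (pow_mem (conjR g y H.hy) _)) (pow_mem hzR _),
      H.co_mul (pow_mem (conjR g x H.hx) _) (pow_mem (conjR g y H.hy) _),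
      H.co_pow (conjR g x H.hx), H.co_pow (conjR g y H.hy), H.co_pow hzR, hz0]
    simp [rho]
    constructor <;> ring
  have rho_mul : ∀ g h, rho (g * h) = rho g * rho h := by
    intro g h
    have key : ∀ r ∈ R, H.co (g * h * r * (g * h)⁻¹) =
        (rho g 0 0 * (H.co (h * r * h⁻¹)).1 + rho g 0 1 * (H.co (h * r * h⁻¹)).2,
          rho g 1 0 * (H.co (h * r * h⁻¹)).1 + rho g 1 1 * (H.co (h * r * h⁻¹)).2) := fun r hr => by
      rw [← hconj g _ (conjR h r hr)]; congr 1; group
    have kx := key x H.hx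
    have ky := key y H.hy
    simp only [mul_inv_rev] at kx ky
    ext i j
    fin_cases i <;> fin_cases j <;> simp [rho, Matrix.mul_apply, Fin.sum_univ_two, kx, ky]
  have rho_R : ∀ r ∈ R, rho r = 1 := by
    intro r hr
    have : ∀ s ∈ R, H.co (r * s * r⁻¹) = H.co s := fun s hs => by
      rw [H.co_mul (mul_mem hr hs) (inv_mem hr), H.co_mul hr hs, H.co_inv hr]; abel
    ext i j
    fin_cases i <;> fin_cases j <;> simp [rho, this x H.hx, this y H.hy, cox, coy]
  -- the determinant
  have rho_pi : ∀ g h, π g = π h → rho g = rho h := by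
    intro g h he
    have hR' : g⁻¹ * h ∈ R := (hπk _).1 (by rw [map_mul, map_inv, he, inv_mul_cancel])
    rw [show h = g * (g⁻¹ * h) by group, rho_mul, rho_R _ hR', mul_one]
  have hdet : ∀ g, (rho g).det = 1 := by
    have one : rho 1 = 1 := rho_R 1 (one_mem _)
    have cube : ∀ g, (π g) ^ 3 = 1 → (rho g).det = 1 := by
      intro g hg
      have h := rho_pi (g ^ 3) 1 (by rw [map_pow, hg, map_one])
      rw [pow_succ, pow_two, rho_mul, rho_mul, one] at h
      have h' := congrArg Matrix.det h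
      rw [Matrix.det_mul, Matrix.det_mul, Matrix.det_one] at h'
      revert h'
      generalize (rho g).det = d
      revert d
      decide
    obtain ⟨gu, hgu⟩ := hπs Um
    obtain ⟨gl, hgl⟩ := hπs Lm
    have du : ∀ n : ℕ, (rho (gu ^ n)).det = 1 := by
      intro n; induction n with
      | zero => rw [pow_zero, one, Matrix.det_one]
      | succ n ih => rw [pow_succ, rho_mul, Matrix.det_mul, ih, cube gu (by rw [hgu, hU3]), one_mul]
    have dl : ∀ n : ℕ, (rho (gl ^ n)).det = 1 := by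
      intro n; induction n with
      | zero => rw [pow_zero, one, Matrix.det_one]
      | succ n ih => rw [pow_succ, rho_mul, Matrix.det_mul, ih, cube gl (by rw [hgl, hL3]), one_mul]
    intro g
    obtain ⟨a, b, c, d, hg⟩ := hgen (π g)
    rw [rho_pi g (gu ^ a.val * gl ^ b.val * gu ^ c.val * gl ^ d.val) (by simp [hg, hgu, hgl]), rho_mul, rho_mul,
      rho_mul, Matrix.det_mul, Matrix.det_mul, Matrix.det_mul, du, dl, du, dl]
    norm_num
  let ρ : X →* S23 :=
    { toFun := fun g => ⟨rho g, hdet g⟩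
      map_one' := Subtype.ext (rho_R 1 (one_mem _))
      map_mul' := fun g h => Subtype.ext (rho_mul g h) }
  have hconj' : ∀ g, ∀ r ∈ R, H.co (g * r * g⁻¹) = app (ρ g) (H.co r) := hconj
  -- `z` is central
  have hzcen : ∀ g : X, z * g = g * z := by
    intro g
    have h1 := H.comm_iff (conjR g y H.hy) (conjR g x H.hx)
    have h2 : g * y * g⁻¹ * (g * x * g⁻¹) = g * x * g⁻¹ * (g * y * g⁻¹) * (g * z * g⁻¹) := by
      rw [show g * y * g⁻¹ * (g * x * g⁻¹) = g * (y * x) * g⁻¹ by group, H.hyx]; group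
    rw [h2] at h1
    have h3 := mul_left_cancel h1
    have hd := hdet g
    rw [Matrix.det_fin_two] at hd
    simp only [rho, Matrix.of_apply, Matrix.cons_val', Matrix.cons_val_zero, Matrix.cons_val_one,
      Matrix.empty_val', Matrix.cons_val_fin_one] at hd
    rw [show (H.co (g * y * g⁻¹)).2 * (H.co (g * x * g⁻¹)).1 - (H.co (g * y * g⁻¹)).1 * (H.co (g * x * g⁻¹)).2 = 1 by
      linear_combination hd, show ((1 : ZMod 3)).val = 1 from rfl, pow_one] at h3
    exact (mul_inv_eq_iff_eq_mul.1 h3).symm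
  have hzp : ∀ (n : ℕ) (g : X), z ^ n * g = g * z ^ n := fun n g => (show Commute z g from hzcen g).pow_left n
  have invz : ∀ {r : X}, r ∈ R → r * r = 1 → r = 1 := fun {r} hr hr2 => by
    have := hRexp r hr
    rwa [pow_succ, pow_two, hr2, one_mul] at this
  -- faithfulness
  have hker : ∀ g, ρ g = 1 → g ∈ R := by
    intro g hg
    by_contra hgR
    obtain ⟨h', hh'⟩ := hneg (π g) (fun h => hgR ((hπk g).1 h))
    obtain ⟨h, rfl⟩ := hπs h'
    obtain ⟨s, hs, hsπ⟩ : ∃ s, ρ s = 1 ∧ π s = -1 := by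
      rcases hh' with e1 | e1 | e1 | e1
      · exact ⟨g ^ 2, by rw [map_pow, hg, one_pow], by rw [map_pow, e1]⟩
      · exact ⟨g ^ 3, by rw [map_pow, hg, one_pow], by rw [map_pow, e1]⟩
      · exact ⟨g, hg, e1⟩
      · exact ⟨(h * g * h⁻¹ * g⁻¹) ^ 2, by simp [hg], by simpa using e1⟩
    set t := s ^ 3 with ht
    have htπ : π t = -1 := by
      rw [ht, map_pow, hsπ, pow_succ, pow_two, hnegneg, one_mul]
    have htρ : ρ t = 1 := by rw [ht, map_pow, hs, one_pow]
    have ht2 : t * t = 1 := by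
      have : s ^ 2 ∈ R := (hπk _).1 (by rw [map_pow, hsπ, pow_two, hnegneg])
      rw [ht, ← pow_add, show 3 + 3 = 2 * 3 by norm_num, pow_mul, hRexp _ this]
    have tR : ∀ r ∈ R, t * r = r * t := by
      intro r hr
      have hc := hconj' t r hr
      rw [htρ] at hc
      have hc' : H.co (r⁻¹ * (t * r * t⁻¹)) = 0 := by
        rw [H.co_mul (inv_mem hr) (conjR t r hr), H.co_inv hr, hc]
        simp [app]
      obtain ⟨c, hc2⟩ := H.exists_z_of_co (mul_mem (inv_mem hr) (conjR t r hr)) hc'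
      have e1 : t * r * t⁻¹ = r * z ^ c.val := by rw [← hc2]; group
      have e2 : r = r * z ^ c.val * z ^ c.val := by
        calc r = t * (t * r * t⁻¹) * t⁻¹ := by
              rw [show t * (t * r * t⁻¹) * t⁻¹ = t * t * r * (t * t)⁻¹ by group, ht2]; group
          _ = t * (r * z ^ c.val) * t⁻¹ := by rw [e1]
          _ = t * r * t⁻¹ * z ^ c.val := by rw [← mul_assoc t r, mul_assoc (t * r), hzp, ← mul_assoc]
          _ = r * z ^ c.val * z ^ c.val := by rw [e1]
      have hz1 := invz (pow_mem H.hz c.val) (mul_left_cancel (a := r) (by rw [mul_one, ← mul_assoc]; exact e2.symm))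
      rw [hz1, mul_one] at e1
      exact mul_inv_eq_iff_eq_mul.1 e1
    have hnorm : ∀ g : X, g * t * g⁻¹ = t := by
      intro g
      have hr : g * t * g⁻¹ * t⁻¹ ∈ R := (hπk _).1 (by
        rw [map_mul, map_mul, map_mul, map_inv, map_inv, htπ, ← hnegc, mul_inv_cancel_right, mul_inv_cancel])
      set r := g * t * g⁻¹ * t⁻¹ with hr'
      have e1 : g * t * g⁻¹ = r * t := by rw [hr']; group
      have hrc : ∀ s ∈ R, r * s = s * r := by
        intro s hs
        have hs' : g⁻¹ * s * g ∈ R := by simpa using conjR g⁻¹ s hs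
        have e2 : g * t * g⁻¹ * s = s * (g * t * g⁻¹) := by
          calc g * t * g⁻¹ * s = g * (t * (g⁻¹ * s * g)) * g⁻¹ := by group
            _ = g * ((g⁻¹ * s * g) * t) * g⁻¹ := by rw [tR _ hs']
            _ = s * (g * t * g⁻¹) := by group
        rw [e1, mul_assoc, tR s hs, ← mul_assoc, ← mul_assoc] at e2
        exact mul_right_cancel e2
      obtain ⟨c, hc⟩ := hcen r hr hrc
      have e3 : r * t * (r * t) = 1 := by
        rw [← e1, show g * t * g⁻¹ * (g * t * g⁻¹) = g * (t * t) * g⁻¹ by group, ht2]; group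
      rw [mul_assoc, ← mul_assoc t, tR r hr, mul_assoc r t, ht2, mul_one] at e3
      rw [e1, invz hr e3, one_mul]
    have ht1 : t = 1 := by
      have hle : Subgroup.zpowers t ≤ Cfsg.pCore 2 X := by
        refine le_pCore ⟨fun a ha g => ?_⟩ ?_
        · obtain ⟨k, rfl⟩ := ha
          rw [← conj_zpow, hnorm]
          exact ⟨k, rfl⟩
        · haveI : Fact (Nat.Prime 2) := ⟨Nat.prime_two⟩
          refine IsPGroup.of_card (n := 1) ?_
          rw [Nat.card_zpowers, pow_one]
          refine orderOf_eq_prime (by rw [pow_two, ht2]) fun h => hne ?_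
          rw [← htπ, h, map_one]
      exact Subgroup.mem_bot.1 (hO2 ▸ hle (Subgroup.mem_zpowers t))
    exact hne (by rw [← htπ, ht1, map_one])
  have hXcard : Nat.card X = 648 := by
    rw [Subgroup.card_eq_card_quotient_mul_card_subgroup R, Nat.card_congr e.toEquiv, card_s23, hRcard]
  have hρk : ρ.ker = R := le_antisymm (fun g hg => hker g hg) fun r hr => Subtype.ext (rho_R r hr)
  have hρs : Function.Surjective ρ := by
    rw [← MonoidHom.range_eq_top]
    refine Subgroup.eq_top_of_card_eq _ ?_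
    rw [← Nat.card_congr (QuotientGroup.quotientKerEquivRange ρ).toEquiv, hρk, Nat.card_congr e.toEquiv]
  have hρR : ∀ r ∈ R, ρ r = 1 := fun r hr => (hρk.ge hr : r ∈ ρ.ker)
  -- the central involution of a complement
  obtain ⟨s, hs⟩ := hρs (-1)
  set t := s ^ 3 with htdef
  have htρ : ρ t = -1 := by rw [htdef, map_pow, hs, pow_succ, pow_two, hnegneg, one_mul]
  have ht2 : t * t = 1 := by
    have : s ^ 2 ∈ R := hker _ (by rw [map_pow, hs, pow_two, hnegneg])
    rw [htdef, ← pow_add, show 3 + 3 = 2 * 3 by norm_num, pow_mul, hRexp _ this]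
  have htinv : t⁻¹ = t := inv_eq_of_mul_eq_one_right ht2
  have tco : ∀ r ∈ R, H.co (t * r * t) = -H.co r := by
    intro r hr
    nth_rewrite 2 [← htinv]
    rw [hconj' t r hr, htρ]
    ext <;> simp [app]
  have cojz : ∀ {r : X}, r ∈ R → ∀ n, H.co (r * z ^ n) = H.co r := fun {r} hr n => by
    rw [H.co_mul hr (pow_mem H.hz n)]
    have : H.co (z ^ n) = 0 := by
      induction n with
      | zero => rw [pow_zero, H.co_one]
      | succ n ih => rw [pow_succ, H.co_mul (pow_mem H.hz n) H.hz, ih, H.co_z, add_zero]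
    rw [this, add_zero]
  have hS : ∀ v : V2, ∃ r ∈ R, H.co r = v ∧ t * r * t = r⁻¹ := by
    intro v
    obtain ⟨r, hrR, hco⟩ : ∃ r ∈ R, H.co r = v := ⟨_, H.co_mem v.1 v.2 0, H.co_eq _ _ _⟩
    have htr : t * r * t ∈ R := by have := conjR t r hrR; rwa [htinv] at this
    obtain ⟨k, hk⟩ := H.exists_z_of_co (mul_mem hrR htr) (by rw [H.co_mul hrR htr, tco r hrR, add_neg_cancel])
    refine ⟨r * z ^ k.val, mul_mem hrR (pow_mem H.hz _), by rw [cojz hrR, hco], ?_⟩
    have h3 : z ^ k.val * z ^ k.val * z ^ k.val = 1 := by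
      rw [← pow_two, ← pow_succ, ← pow_mul, mul_comm, pow_mul, H.z3, one_pow]
    calc t * (r * z ^ k.val) * t = t * r * (z ^ k.val * t) := by group
      _ = r⁻¹ * (r * (t * r * t)) * z ^ k.val := by rw [hzp]; group
      _ = r⁻¹ * (z ^ k.val * z ^ k.val) := by rw [hk]; group
      _ = r⁻¹ * (z ^ k.val)⁻¹ := by rw [inv_eq_of_mul_eq_one_left h3]
      _ = (r * z ^ k.val)⁻¹ := by
        rw [mul_inv_rev, ((show Commute z r⁻¹ from hzcen _).pow_left k.val).inv_left.eq]
  choose S hSR hSco hSt using hS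
  have Suniq : ∀ r ∈ R, t * r * t = r⁻¹ → r = S (H.co r) := by
    intro r hr hrt
    set s := S (H.co r) with hsdef
    obtain ⟨c, hc⟩ := H.exists_z_of_co (mul_mem (inv_mem (hSR (H.co r))) hr)
      (by rw [H.co_mul (inv_mem (hSR _)) hr, H.co_inv (hSR _), hSco, neg_add_cancel])
    have e1 : r = s * z ^ c.val := by rw [← hc, hsdef]; group
    have e2 : z ^ c.val * z ^ c.val = 1 := by
      have h := hrt
      rw [e1, show t * (s * z ^ c.val) * t = t * s * (z ^ c.val * t) by group, hzp, ← mul_assoc, hSt,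
        mul_inv_rev, ← hsdef] at h
      have h' : z ^ c.val * s⁻¹ = (z ^ c.val)⁻¹ * s⁻¹ := by rw [← h, hzp]
      exact mul_eq_one_iff_eq_inv.2 (mul_right_cancel h')
    rw [e1, invz (pow_mem H.hz _) e2, mul_one]
  have S0 : S 0 = 1 := by
    have := Suniq 1 (one_mem R) (by rw [mul_one, inv_one, ht2])
    rwa [H.co_one, eq_comm] at this
  have Smul : ∀ v w, S v * S w = S (v + w) * z ^ (om v w).val := by
    intro v w
    have hm := mul_mem (hSR v) (hSR w)
    obtain ⟨φ, hφ⟩ := H.exists_z_of_co (mul_mem (inv_mem (hSR (v + w))) hm)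
      (by rw [H.co_mul (inv_mem (hSR _)) hm, H.co_inv (hSR _), H.co_mul (hSR v) (hSR w), hSco, hSco, hSco,
        neg_add_cancel])
    have e1 : S v * S w = S (v + w) * z ^ φ.val := by rw [← hφ]; group
    have e2 : S w * S v = S (v + w) * (z ^ φ.val)⁻¹ := by
      have h := congrArg (fun r => (t * r * t)⁻¹) e1
      have q1 : t * (S v * S w) * t = (t * S v * t) * (t * S w * t) := by
        rw [show (t * S v * t) * (t * S w * t) = t * S v * (t * t) * S w * t by group, ht2]; group
      have q2 : t * (S (v + w) * z ^ φ.val) * t = (t * S (v + w) * t) * z ^ φ.val := by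
        rw [mul_assoc, mul_assoc (S (v + w)), hzp]; group
      simp only [q1, q2, hSt, mul_inv_rev, inv_inv] at h
      rw [h]
      exact ((show Commute z (S (v + w)) from hzcen _).pow_left φ.val).inv_left.eq
    have h3 := H.comm_iff (hSR v) (hSR w)
    rw [hSco, hSco, e1, e2, mul_assoc] at h3
    have h4 := mul_left_cancel h3
    have h5 : z ^ (φ + φ).val = z ^ (v.2 * w.1 - v.1 * w.2).val := by
      rw [pow_val_add H.z3]
      nth_rewrite 2 [h4]
      rw [mul_inv_cancel_left]
    have h6 : φ + φ = v.2 * w.1 - v.1 * w.2 := (H.co_inj 0 0 _ 0 0 _ (by rw [h5])).2.2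
    rw [e1, show φ = om v w from by
      unfold om
      linear_combination (-1 : ZMod 3) * h6 + φ * (by decide : (3 : ZMod 3) = 0)]
  -- the centralizer of `t`
  set C := Subgroup.centralizer ({t} : Set X) with hC
  have memC : ∀ {g : X}, g ∈ C ↔ g * t = t * g := Subgroup.mem_centralizer_singleton_iff
  have hzC : ∀ n, z ^ n ∈ C := fun n => memC.2 (hzp n t)
  have Cact : ∀ g ∈ C, ∀ v, g * S v * g⁻¹ = S (app (ρ g) v) := by
    intro g hg v
    have h := Suniq _ (conjR g _ (hSR v)) (by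
      have hgt := memC.1 hg
      have hgt' : g⁻¹ * t = t * g⁻¹ := by
        rw [inv_mul_eq_iff_eq_mul, ← mul_assoc, hgt, mul_inv_cancel_right]
      rw [show t * (g * S v * g⁻¹) * t = t * g * S v * (g⁻¹ * t) by group, hgt', ← hgt,
        show g * t * S v * (t * g⁻¹) = g * (t * S v * t) * g⁻¹ by group, hSt]
      group)
    rwa [hconj' g _ (hSR v), hSco] at h
  have CR : ∀ g ∈ C, g ∈ R → ∃ c : ZMod 3, g = z ^ c.val := by
    intro g hg hgR
    refine H.exists_z_of_co hgR ?_
    have h := tco g hgR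
    rw [← memC.1 hg, mul_assoc, ht2, mul_one] at h
    revert h
    generalize H.co g = v
    revert v
    decide
  have Csur : ∀ M : S23, ∃ g ∈ C, ρ g = M := by
    intro M
    obtain ⟨g, hg⟩ := hρs M
    set r := g * t * g⁻¹ * t⁻¹ with hrdef
    have hrR : r ∈ R := hker _ (by
      rw [hrdef, map_mul, map_mul, map_mul, map_inv, map_inv, htρ, ← hnegc, mul_inv_cancel_right, mul_inv_cancel])
    have e1 : g * t * g⁻¹ = r * t := by rw [hrdef]; group
    have e2 : t * r * t = r⁻¹ := by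
      have : r * t * (r * t) = 1 := by
        rw [← e1, show g * t * g⁻¹ * (g * t * g⁻¹) = g * (t * t) * g⁻¹ by group, ht2]; group
      refine eq_inv_of_mul_eq_one_right ?_
      calc r * (t * r * t) = r * t * (r * t) := by group
        _ = 1 := this
    refine ⟨r * g, memC.2 ?_, by rw [map_mul, hρR r hrR, one_mul, hg]⟩
    have e3 : r * (g * t * g⁻¹) * r⁻¹ = t := by
      have e2' : t * r⁻¹ = r * t := by
        rw [← e2, ← mul_assoc, ← mul_assoc, ht2, one_mul]
      rw [e1, show r * (r * t) * r⁻¹ = r * r * (t * r⁻¹) by group, e2', ← mul_assoc,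
        show r * r * r = r ^ 3 by rw [pow_succ, pow_two], hRexp r hrR, one_mul]
    calc r * g * t = r * (g * t * g⁻¹) * r⁻¹ * (r * g) := by group
      _ = t * (r * g) := by rw [e3]
  obtain ⟨u, huC, huρ⟩ := Csur Um
  -- order three
  have hu3 : u ^ 3 = 1 := by
    obtain ⟨E, hEc, hE3, hEcard⟩ := hE
    have hER : ∃ a ∈ E, a ∉ R := by
      by_contra h
      push Not at h
      have hEq : E = R := Subgroup.eq_of_le_of_card_ge h (by rw [hEcard, hRcard])
      have := H.comm_iff H.hy H.hx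
      rw [coy, cox] at this
      have hcomm : y * x = x * y := congrArg Subtype.val
        (hEc.is_comm.comm (⟨y, hEq ▸ H.hy⟩ : E) ⟨x, hEq ▸ H.hx⟩)
      rw [hcomm] at this
      have h1 := (H.co_inj 0 0 0 0 0 1 (by
        simp only [ZMod.val_zero, pow_zero, one_mul, show (1 : ZMod 3).val = 1 from rfl, pow_one]
        have h2 : (1 * 1 - 0 * 0 : ZMod 3).val = 1 := rfl
        rw [h2, pow_one] at this
        exact mul_left_cancel (a := x * y) (by rw [mul_one]; exact this))).2.2
      exact absurd h1 (by decide)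
    obtain ⟨a, haE, haR⟩ := hER
    obtain ⟨h', hh'⟩ := hU (ρ a) (by rw [← map_pow, hE3 a haE, map_one]) (fun h => haR (hker a h))
    obtain ⟨k, rfl⟩ := hρs h'
    -- a conjugate over `Um`
    obtain ⟨e1, he1ρ, he13, A, hA3, hAcard, hAe⟩ : ∃ e1 : X, ρ e1 = Um ∧ e1 ^ 3 = 1 ∧ ∃ A : Subgroup X,
        (∀ b ∈ A, b ^ 3 = 1) ∧ Nat.card A = 27 ∧ ∀ b ∈ A, e1 * b = b * e1 := by
      let c := MulAut.conj k
      have hA : ∀ b ∈ E.map c.toMonoidHom, (k * a * k⁻¹) * b = b * (k * a * k⁻¹) := by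
        rintro _ ⟨b, hb, rfl⟩
        have hab : a * b = b * a := congrArg Subtype.val (hEc.is_comm.comm (⟨a, haE⟩ : E) ⟨b, hb⟩)
        change k * a * k⁻¹ * (k * b * k⁻¹) = k * b * k⁻¹ * (k * a * k⁻¹)
        rw [show k * a * k⁻¹ * (k * b * k⁻¹) = k * (a * b) * k⁻¹ by group, hab]; group
      have hA3 : ∀ b ∈ E.map c.toMonoidHom, b ^ 3 = 1 := by
        rintro _ ⟨b, hb, rfl⟩
        rw [← map_pow, hE3 b hb, map_one]
      have hAcard : Nat.card (E.map c.toMonoidHom) = 27 :=
        (Subgroup.card_map_of_injective (f := c.toMonoidHom) c.injective).trans hEcard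
      have hmem : k * a * k⁻¹ ∈ E.map c.toMonoidHom := ⟨a, haE, rfl⟩
      rcases hh' with h1 | h1
      · exact ⟨k * a * k⁻¹, by simpa using h1, hA3 _ hmem, _, hA3, hAcard, hA⟩
      · refine ⟨(k * a * k⁻¹) ^ 2, ?_, ?_, _, hA3, hAcard, fun b hb => ((show Commute _ _ from hA b hb).pow_left 2).eq⟩
        · rw [map_pow, show ρ (k * a * k⁻¹) = Um ^ 2 by simpa using h1, ← pow_mul,
            show 2 * 2 = 3 + 1 from rfl, pow_succ, hU3, one_mul]
        · rw [← pow_mul, mul_comm, pow_mul, hA3 _ hmem, one_pow]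
    obtain ⟨b, hbA, hbR, hb0⟩ : ∃ b ∈ A, b ∈ R ∧ H.co b ≠ 0 := by
      by_contra h
      push Not at h
      have hker3 : Nat.card (ρ.comp A.subtype).ker ≤ 3 := by
        refine le_trans (Nat.card_le_card_of_surjective
          (fun c : ZMod 3 => if hc : z ^ c.val ∈ A then
            (if hc' : (⟨_, hc⟩ : A) ∈ (ρ.comp A.subtype).ker then ⟨_, hc'⟩ else 1) else 1) ?_) (by simp)
        intro n
        have hnR : (n : A).1 ∈ R := hker _ n.2
        obtain ⟨c, hc⟩ := H.exists_z_of_co hnR (h _ n.1.2 hnR)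
        have hc2 : z ^ c.val ∈ A := hc ▸ n.1.2
        refine ⟨c, ?_⟩
        have heq : (⟨z ^ c.val, hc2⟩ : A) = n.1 := Subtype.ext hc.symm
        simp only [dif_pos hc2]
        rw [dif_pos (heq ▸ n.2 : (⟨z ^ c.val, hc2⟩ : A) ∈ (ρ.comp A.subtype).ker)]
        exact Subtype.ext heq
      have h1 := Subgroup.card_eq_card_quotient_mul_card_subgroup (ρ.comp A.subtype).ker
      rw [hAcard, Nat.card_congr (QuotientGroup.quotientKerEquivRange (ρ.comp A.subtype)).toEquiv] at h1
      have h2 : Nat.card (ρ.comp A.subtype).range ∣ 24 := card_s23 ▸ Subgroup.card_subgroup_dvd_card _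
      have h3 : Nat.card (ρ.comp A.subtype).range ≤ 24 := Nat.le_of_dvd (by norm_num) h2
      interval_cases hn : Nat.card (ρ.comp A.subtype).range <;>
        interval_cases Nat.card (ρ.comp A.subtype).ker <;> omega
    set r := e1 * u⁻¹ with hrdef
    have hrR : r ∈ R := hker _ (by rw [hrdef, map_mul, map_inv, he1ρ, huρ, mul_inv_cancel])
    have he1 : e1 = r * u := by rw [hrdef]; group
    have hb1 : (H.co b).2 = 0 := by
      have h := hconj' e1 b hbR
      rw [hAe b hbA, mul_inv_cancel_right, he1ρ] at h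
      have := congrArg Prod.fst h
      simp [app, Um] at this
      exact this
    have hub : u * b * u⁻¹ = b := by
      obtain ⟨c, hc⟩ := H.exists_z_of_co (mul_mem (inv_mem (hSR (H.co b))) hbR)
        (by rw [H.co_mul (inv_mem (hSR _)) hbR, H.co_inv (hSR _), hSco, neg_add_cancel])
      have hb' : b = S (H.co b) * z ^ c.val := by rw [← hc]; group
      have hfix : app (ρ u) (H.co b) = H.co b := by rw [huρ]; ext <;> simp [app, Um, hb1]
      rw [hb', show u * (S (H.co b) * z ^ c.val) * u⁻¹ = u * S (H.co b) * (z ^ c.val * u⁻¹) by group, hzp,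
        ← mul_assoc, Cact u huC, hfix]
    have hrb : r * b = b * r := by
      have h := hAe b hbA
      rw [he1, mul_assoc, mul_inv_eq_iff_eq_mul.1 hub, ← mul_assoc, ← mul_assoc] at h
      exact mul_right_cancel h
    have hr2 : (H.co r).2 = 0 := by
      have h := H.comm_iff hrR hbR
      rw [hrb, eq_comm, mul_eq_left] at h
      have h0 := (H.co_inj 0 0 ((H.co r).2 * (H.co b).1 - (H.co r).1 * (H.co b).2) 0 0 0 (by simp [h])).2.2
      rw [hb1, mul_zero, sub_zero, mul_eq_zero] at h0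
      exact h0.resolve_right fun hh => hb0 (Prod.ext hh hb1)
    have hru : u * r * u⁻¹ = r := by
      obtain ⟨c, hc⟩ := H.exists_z_of_co (mul_mem (inv_mem (hSR (H.co r))) hrR)
        (by rw [H.co_mul (inv_mem (hSR _)) hrR, H.co_inv (hSR _), hSco, neg_add_cancel])
      have hr' : r = S (H.co r) * z ^ c.val := by rw [← hc]; group
      have hfix : app (ρ u) (H.co r) = H.co r := by rw [huρ]; ext <;> simp [app, Um, hr2]
      rw [hr', show u * (S (H.co r) * z ^ c.val) * u⁻¹ = u * S (H.co r) * (z ^ c.val * u⁻¹) by group, hzp,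
        ← mul_assoc, Cact u huC, hfix]
    have hcomm : Commute r u := (mul_inv_eq_iff_eq_mul.1 hru).symm
    rw [he1, hcomm.mul_pow, hRexp r hrR, one_mul] at he13
    exact he13
  -- the complement, by transfer
  let T : Subgroup C :=
    { carrier := {g | ∃ a b : ZMod 3, (g : X) = z ^ a.val * u ^ b.val}
      one_mem' := ⟨0, 0, by simp⟩
      mul_mem' := by
        rintro g h ⟨a, b, hg⟩ ⟨a', b', hh⟩
        refine ⟨a + a', b + b', ?_⟩
        rw [Subgroup.coe_mul, hg, hh, pow_val_add H.z3, pow_val_add hu3, mul_assoc, ← mul_assoc (u ^ b.val),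
          ← hzp]
        group
      inv_mem' := by
        rintro g ⟨a, b, hg⟩
        refine ⟨-a, -b, ?_⟩
        rw [Subgroup.coe_inv]
        refine inv_eq_of_mul_eq_one_right ?_
        rw [hg, mul_assoc, ← mul_assoc (u ^ b.val), ← hzp, mul_assoc, ← pow_val_add hu3, ← mul_assoc,
          ← pow_val_add H.z3, add_neg_cancel, add_neg_cancel]
        simp }
  have hUpow : ∀ b b' : ZMod 3, Um ^ b.val = Um ^ b'.val → b = b' := by decide +kernel
  have hTuniq : ∀ a b a' b' : ZMod 3, z ^ a.val * u ^ b.val = z ^ a'.val * u ^ b'.val → a = a' ∧ b = b' := by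
    intro a b a' b' h
    have h1 := congrArg ρ h
    simp only [map_mul, map_pow, hρR z H.hz, one_pow, one_mul, huρ] at h1
    have hb : b = b' := hUpow b b' h1
    subst hb
    exact ⟨(H.co_inj 0 0 a 0 0 a' (by simpa using mul_right_cancel h)).2.2, rfl⟩
  let φ : T →* Multiplicative (ZMod 3) := MonoidHom.mk' (fun g => Multiplicative.ofAdd g.2.choose) (by
    intro g h
    obtain ⟨b, hb⟩ := g.2.choose_spec
    obtain ⟨b', hb'⟩ := h.2.choose_spec
    obtain ⟨b'', hb''⟩ := (g * h).2.choose_spec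
    have : ((g * h : T) : C).1 = z ^ (g.2.choose + h.2.choose).val * u ^ (b + b').val := by
      refine (congrArg₂ (· * ·) hb hb').trans ?_
      rw [pow_val_add H.z3, pow_val_add hu3, mul_assoc, ← mul_assoc (u ^ b.val), ← hzp]
      group
    rw [← ofAdd_add, (hTuniq _ _ _ _ (hb''.symm.trans this)).1])
  let zC : C := ⟨z, by simpa using hzC 1⟩
  have hCcard : Nat.card C = 72 := by
    have h1 := Subgroup.card_eq_card_quotient_mul_card_subgroup (ρ.comp C.subtype).ker
    rw [Nat.card_congr (QuotientGroup.quotientKerEquivRange (ρ.comp C.subtype)).toEquiv,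
      MonoidHom.range_eq_top.2 (fun M => by obtain ⟨g, hg, e⟩ := Csur M; exact ⟨⟨g, hg⟩, e⟩),
      Subgroup.card_top, card_s23] at h1
    rw [h1]
    have : Nat.card (ρ.comp C.subtype).ker = 3 := by
      have hb : Function.Bijective (fun c : ZMod 3 =>
          (⟨⟨z ^ c.val, hzC _⟩, hρR _ (pow_mem H.hz _)⟩ : (ρ.comp C.subtype).ker)) := by
        refine ⟨fun c c' h => ?_, fun n => ?_⟩
        · exact (H.co_inj 0 0 c 0 0 c' (by
            simpa using congrArg (fun n : (ρ.comp C.subtype).ker => ((n : C) : X)) h)).2.2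
        · obtain ⟨c, hc⟩ := CR _ n.1.2 (hker _ n.2)
          exact ⟨c, Subtype.ext (Subtype.ext hc.symm)⟩
      rw [← Nat.card_eq_of_bijective _ hb]; simp
    rw [this]
  have hTindex : T.index = 8 := by
    have hb : Function.Bijective (fun p : ZMod 3 × ZMod 3 => (⟨⟨z ^ p.1.val * u ^ p.2.val,
        mul_mem (hzC _) (pow_mem huC _)⟩, p.1, p.2, rfl⟩ : T)) := by
      refine ⟨fun p q h => ?_, fun g => ?_⟩
      · obtain ⟨h1, h2⟩ := hTuniq _ _ _ _ (congrArg (fun g : T => ((g : C) : X)) h)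
        exact Prod.ext h1 h2
      · obtain ⟨a, b, hab⟩ := g.2
        exact ⟨(a, b), Subtype.ext (Subtype.ext hab.symm)⟩
    have h1 := Subgroup.card_mul_index T
    rw [← Nat.card_eq_of_bijective _ hb, hCcard] at h1
    simp [Nat.card_eq_fintype_card] at h1
    omega
  let τ : C →* Multiplicative (ZMod 3) := MonoidHom.transfer φ
  have hτz : ∀ a : ZMod 3, τ (zC ^ a.val) = Multiplicative.ofAdd (2 * a) := by
    intro a
    have hcen : ∀ g : C, zC * g = g * zC := fun g => Subtype.ext (hzcen g)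
    rw [map_pow, show τ zC = φ ⟨zC ^ T.index, _⟩ from MonoidHom.transfer_eq_pow φ zC (fun k g₀ _ => by
      rw [mul_assoc, ((show Commute zC g₀ from hcen g₀).pow_left k).eq, inv_mul_cancel_left])]
    set g : T := ⟨zC ^ T.index, _⟩
    change (Multiplicative.ofAdd g.2.choose) ^ a.val = _
    obtain ⟨b, hb⟩ := g.2.choose_spec
    have : ((g : C) : X) = z ^ (2 : ZMod 3).val * u ^ (0 : ZMod 3).val := by
      change z ^ T.index = _
      rw [hTindex, pow_eq_pow_mod _ H.z3, ZMod.val_zero, pow_zero, mul_one]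
      rfl
    rw [(hTuniq _ _ _ _ (hb.symm.trans this)).1, ← ofAdd_nsmul, nsmul_eq_mul, ZMod.natCast_zmod_val, mul_comm]
  have hK : ∀ M : S23, ∃ g : C, ρ g.1 = M ∧ τ g = 1 := by
    intro M
    obtain ⟨g, hg, hgρ⟩ := Csur M
    refine ⟨⟨g, hg⟩ * zC ^ (Multiplicative.toAdd (τ ⟨g, hg⟩)).val, ?_, ?_⟩
    · change ρ (g * (zC ^ _ : C).1) = M
      rw [map_mul, hgρ, hρR _ (by simpa using pow_mem H.hz _), mul_one]
    · rw [map_mul, hτz]
      apply Multiplicative.toAdd.injective
      rw [toAdd_mul, toAdd_ofAdd, toAdd_one]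
      generalize Multiplicative.toAdd (τ ⟨g, hg⟩) = a
      revert a
      decide
  choose k hkρ hkτ using hK
  have h20 : ∀ c : ZMod 3, 2 * c = 0 → c = 0 := by decide
  have kuniq : ∀ g : C, τ g = 1 → g = k (ρ g.1) := by
    intro g hg
    set d := (k (ρ g.1))⁻¹ * g with hd
    obtain ⟨c, hc⟩ := CR d.1 d.2 (hker _ (by
      rw [hd, Subgroup.coe_mul, Subgroup.coe_inv, map_mul, map_inv, hkρ, inv_mul_cancel]))
    have hdz : d = zC ^ c.val := Subtype.ext (by simpa using hc)
    have h0 : τ d = 1 := by rw [hd, map_mul, map_inv, hkτ, hg, inv_one, mul_one]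
    rw [hdz, hτz] at h0
    have hc0 : c = 0 := by
      have h0' : (2 : ZMod 3) * c = 0 := congrArg Multiplicative.toAdd h0
      exact h20 c h0'
    rw [hc0, ZMod.val_zero, pow_zero, hd, inv_mul_eq_one] at hdz
    exact hdz.symm
  have kmul : ∀ M N, k (M * N) = k M * k N := fun M N => by
    have := kuniq (k M * k N) (by rw [map_mul, hkτ, hkτ, one_mul])
    rw [Subgroup.coe_mul, map_mul, hkρ, hkρ] at this
    exact this.symm
  let f : Pt → X := fun p => S p.1 * z ^ p.2.1.val * (k p.2.2).1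
  refine ⟨f, ?_, ?_⟩
  · refine (Nat.bijective_iff_injective_and_card f).2 ⟨?_, ?_⟩
    · rintro ⟨v, a, M⟩ ⟨w, b, N⟩ h
      have hM : M = N := by
        have := congrArg ρ h
        simpa [f, hρR _ (hSR _), hρR z H.hz, hkρ] using this
      subst hM
      have h1 : S v * z ^ a.val = S w * z ^ b.val := mul_right_cancel h
      have hv : v = w := by
        have := congrArg H.co h1
        rwa [cojz (hSR v), cojz (hSR w), hSco, hSco] at this
      subst hv
      have ha : a = b := (H.co_inj 0 0 a 0 0 b (by simpa using mul_left_cancel h1)).2.2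
      subst ha
      rfl
    · rw [hXcard]
      simp only [Nat.card_prod, card_s23, Nat.card_zmod]
  · rintro ⟨v, a, M⟩ ⟨w, b, N⟩
    have hact := Cact _ (k M).2 w
    rw [hkρ] at hact
    simp only [f, pmul, kmul, Subgroup.coe_mul, pow_val_add H.z3]
    calc S v * z ^ a.val * (k M).1 * (S w * z ^ b.val * (k N).1)
        = S v * z ^ a.val * ((k M).1 * S w * (k M).1⁻¹) * ((k M).1 * z ^ b.val) * (k N).1 := by group
      _ = S v * (z ^ a.val * S (app M w)) * z ^ b.val * ((k M).1 * (k N).1) := by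
          rw [hact, ← hzp b.val (k M).1]; group
      _ = S v * S (app M w) * z ^ a.val * z ^ b.val * ((k M).1 * (k N).1) := by
          rw [hzp a.val (S (app M w))]; group
      _ = S (v + app M w) * (z ^ (om v (app M w)).val * (z ^ a.val * z ^ b.val)) * ((k M).1 * (k N).1) := by
          rw [Smul]; group
      _ = _ := by rw [hzp (om v (app M w)).val]

end Cfsg.Agent.Core.Jacobi
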