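import Mathlib

/-!
# Coordinates for `3^(1+2) : SL(2, 3)`
-/

set_option autoImplicit false

namespace Cfsg.Agent.Core.Jacobi

/-- Plane vectors. -/
abbrev V2 := ZMod 3 × ZMod 3

/-- The group `SL(2, 3)`. -/
abbrev S23 := Matrix.SpecialLinearGroup (Fin 2) (ZMod 3)

/-- The points of the model. -/
abbrev Pt := V2 × ZMod 3 × S23

/-- The symplectic product. -/
def om (v w : V2) : ZMod 3 := v.1 * w.2 - v.2 * w.1

/-- The action on plane vectors. -/
def app (M : S23) (v : V2) : V2 :=
  (M.1 0 0 * v.1 + M.1 0 1 * v.2, M.1 1 0 * v.1 + M.1 1 1 * v.2)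

/-- The product of the model. -/
def pmul (p q : Pt) : Pt :=
  (p.1 + app p.2.2 q.1, p.2.1 + q.2.1 + om p.1 (app p.2.2 q.1), p.2.2 * q.2.2)

/-- The first unipotent. -/
def Um : S23 := ⟨!![1, 1; 0, 1], by decide⟩

/-- The second unipotent. -/
def Lm : S23 := ⟨!![1, 0; 1, 1], by decide⟩

/-- Two groups with the coordinates are isomorphic. -/
theorem iso_of_coords {X Y : Type*} [Group X] [Group Y] {f : Pt → X} {g : Pt → Y}
    (hf : Function.Bijective f) (hg : Function.Bijective g) (hfm : ∀ p q, f p * f q = f (pmul p q))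
    (hgm : ∀ p q, g p * g q = g (pmul p q)) : Nonempty (X ≃* Y) := by
  let e := (Equiv.ofBijective f hf).symm.trans (Equiv.ofBijective g hg)
  refine ⟨{ e with map_mul' := fun a b => ?_ }⟩
  obtain ⟨p, rfl⟩ := hf.2 a
  obtain ⟨q, rfl⟩ := hf.2 b
  have he : ∀ r, e (f r) = g r := fun r => by
    simp only [e, Equiv.trans_apply]
    exact congrArg g ((Equiv.ofBijective f hf).symm_apply_apply r)
  change e (f p * f q) = e (f p) * e (f q)
  rw [hfm, he, he, he, hgm]

end Cfsg.Agent.Core.Jacobi
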